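import Cfsg.Agent.Lib.PGroups.Critical
import Cfsg.Agent.Lib.PGroups.MaxAbelian

/-!
# A `3`-group with a nontrivial automorphism of prime order at least `5` has an `E₂₇`
-/

set_option autoImplicit false
set_option linter.unusedSectionVars false

namespace Cfsg.Agent.Lib.ThreeTv

open Subgroup Cfsg.Agent.Lib.PGroups.Critical Cfsg.Agent.Lib.PGroups.ClassTwo
  Cfsg.Agent.Lib.PGroups.MaxAbelian
open scoped commutatorElement

variable {O : Type*} [Group O] [Finite O]

/-- The fixed points of an automorphism. -/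
def fixS (φ : MulAut O) : Subgroup O where
  carrier := {x | φ x = x}
  mul_mem' := by
    intro a b ha hb
    simp only [Set.mem_setOf_eq] at ha hb ⊢
    rw [map_mul, ha, hb]
  one_mem' := map_one φ
  inv_mem' := by
    intro a ha
    simp only [Set.mem_setOf_eq] at ha ⊢
    rw [map_inv, ha]

theorem mem_fixS {φ : MulAut O} {x : O} : x ∈ fixS φ ↔ φ x = x := Iff.rfl

/-- Counting fixed points modulo `p`. -/
theorem card_modEq_fix {p : ℕ} [hp : Fact p.Prime] (φ : MulAut O) (hφ : φ ^ p = 1) (X : Subgroup O)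
    (hX : ∀ x ∈ X, φ x ∈ X) : Nat.card X ≡ Nat.card (X ⊓ fixS φ : Subgroup O) [MOD p] := by
  classical
  letI := Fintype.ofFinite X
  let σ : Function.End X := fun x => ⟨φ x.1, hX x.1 x.2⟩
  have hσn : ∀ n : ℕ, ∀ x : X, ((σ ^ n) x : X).1 = (φ ^ n) x.1 := by
    intro n
    induction n with
    | zero => intro x; rfl
    | succ n ih =>
      intro x
      rw [pow_succ', pow_succ']
      show φ ((σ ^ n) x).1 = _
      rw [ih]
      rfl
  have hσ : σ ^ p ^ 1 = 1 := by
    funext x
    apply Subtype.ext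
    rw [hσn, pow_one, hφ]
    rfl
  have h1 := Equiv.Perm.card_fixedPoints_modEq hσ
  rw [← Nat.card_eq_fintype_card, ← Nat.card_eq_fintype_card] at h1
  have h2 : Nat.card (Function.fixedPoints σ) = Nat.card (X ⊓ fixS φ : Subgroup O) := by
    apply Nat.card_congr
    exact
      { toFun := fun x => ⟨x.1.1, x.1.2, congrArg Subtype.val x.2⟩
        invFun := fun x => ⟨⟨x.1, x.2.1⟩, Subtype.ext x.2.2⟩
        left_inv := fun x => rfl
        right_inv := fun x => rfl }
  rw [h2] at h1
  exact h1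

/-- A `3`-group with a nontrivial automorphism of prime order at least `5` has an `E₂₇`. -/
theorem exists_cube_of_aut (hO : IsPGroup 3 O) {p : ℕ} [hp : Fact p.Prime] (hp5 : 5 ≤ p) (φ : MulAut O)
    (hφ : φ ^ p = 1) (hne : φ ≠ 1) :
    ∃ E : Subgroup O, Cfsg.IsElementaryAbelian 3 E ∧ Nat.card E = 27 := by
  classical
  haveI h3f : Fact (Nat.Prime 3) := ⟨by norm_num⟩
  by_contra hno
  obtain ⟨H, hchar, hfrat, hcomm, hC⟩ := exists_critical hO
  have hcop : ∀ k : ℕ, Nat.Coprime (orderOf φ) 3 := by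
    intro _
    have h1 : orderOf φ ∣ p := orderOf_dvd_of_pow_eq_one hφ
    rcases (Nat.dvd_prime hp.out).mp h1 with h | h
    · rw [h]
      norm_num
    · rw [h]
      exact (Nat.coprime_primes hp.out (by norm_num)).mpr (by omega)
  have hHφ : ∀ x ∈ H, φ x ∈ H := fun x hx => (characteristic_iff_le_comap.mp hchar φ) hx
  have hHφ' : ∀ x ∈ H, φ⁻¹ x ∈ H := fun x hx => (characteristic_iff_le_comap.mp hchar φ⁻¹) hx
  -- multiplicativity of cubes
  have hmulpow : ∀ x ∈ H, ∀ y ∈ H, (x * y) ^ 3 = x ^ 3 * y ^ 3 := by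
    intro x hx y hy
    have h1 := comm_mem_of_frat hO hfrat hy hx
    have hc1 : Commute ⁅y, x⁆ x := ((mem_centralizer_iff.mp h1.2) x hx).symm
    have hc2 : Commute ⁅y, x⁆ y := ((mem_centralizer_iff.mp h1.2) y hy).symm
    have h2 : ⁅y, x⁆ ^ 3 = 1 := by
      rw [← comm_pow_right_of_comm hc1, commutatorElement_eq_one_iff_mul_comm]
      exact ((mem_centralizer_iff.mp (pow_mem_of_frat hO hfrat hx).2) y hy)
    exact mul_pow_prime_of_comm (by norm_num) (by norm_num) hc1 hc2 h2
  let L : Subgroup O :=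
    { carrier := {x | x ∈ H ∧ x ^ 3 = 1}
      mul_mem' := by
        rintro a b ⟨ha, ha3⟩ ⟨hb, hb3⟩
        refine ⟨H.mul_mem ha hb, ?_⟩
        rw [hmulpow a ha b hb, ha3, hb3, one_mul]
      one_mem' := ⟨H.one_mem, one_pow 3⟩
      inv_mem' := by
        rintro a ⟨ha, ha3⟩
        refine ⟨H.inv_mem ha, ?_⟩
        rw [inv_pow, ha3, inv_one] }
  have hL3 : ∀ x ∈ L, x ^ 3 = 1 := fun x hx => hx.2
  have hLφ : ∀ x ∈ L, φ x ∈ L := fun x hx => ⟨hHφ x hx.1, by rw [← map_pow, hx.2, map_one]⟩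
  have hLφ' : ∀ x ∈ L, φ⁻¹ x ∈ L := fun x hx => ⟨hHφ' x hx.1, by rw [← map_pow, hx.2, map_one]⟩
  -- `φ` moves something in `L`
  have hmoved : ∃ x ∈ L, φ x ≠ x := by
    by_contra hfix
    push Not at hfix
    apply hne
    refine eq_one_of_fixes_critical hO H hcomm hC φ (hcop 0) ?_
    -- restrict to `H`
    let φH : MulAut H :=
      { toFun := fun x => ⟨φ x.1, hHφ x.1 x.2⟩
        invFun := fun x => ⟨φ⁻¹ x.1, hHφ' x.1 x.2⟩
        left_inv := fun x => Subtype.ext (by simp)
        right_inv := fun x => Subtype.ext (by simp)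
        map_mul' := fun x y => Subtype.ext (by simp) }
    have hφHn : ∀ n : ℕ, ∀ x : H, ((φH ^ n) x : H).1 = (φ ^ n) x.1 := by
      intro n
      induction n with
      | zero => intro x; rfl
      | succ n ih =>
        intro x
        rw [pow_succ', pow_succ', MulAut.mul_apply, MulAut.mul_apply]
        show φ ((φH ^ n) x).1 = _
        rw [ih]
    have hφHp : φH ^ p = 1 := by
      ext x
      rw [hφHn, hφ]
      rfl
    have hcopH : Nat.Coprime (orderOf φH) 3 := by
      have h1 : orderOf φH ∣ p := orderOf_dvd_of_pow_eq_one hφHp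
      rcases (Nat.dvd_prime hp.out).mp h1 with h | h
      · rw [h]
        norm_num
      · rw [h]
        exact (Nat.coprime_primes hp.out (by norm_num)).mpr (by omega)
    have h1 := eq_one_of_fixes_omega (p := 3) (by norm_num) (hO.to_subgroup H) φH hcopH (by
      intro x hx
      apply Subtype.ext
      exact hfix x.1 ⟨x.2, by simpa using congrArg Subtype.val hx⟩)
    intro x hx
    have := DFunLike.congr_fun h1 ⟨x, hx⟩
    exact congrArg Subtype.val this
  obtain ⟨x₀, hx₀L, hx₀⟩ := hmoved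
  have hno' : ∀ E : Subgroup O, IsMulCommutative E → (∀ a ∈ E, a ^ 3 = 1) → Nat.card E ≠ 27 := by
    intro E h1 h2 h3
    exact hno ⟨E, ⟨h1, h2⟩, h3⟩
  have hLp : IsPGroup 3 L := hO.to_subgroup L
  -- a bound on `|L|`
  have hLcard : Nat.card L ≤ 27 := by
    -- a maximal normal abelian subgroup of `L`
    let T : Set (Subgroup L) := {A | A.Normal ∧ IsMulCommutative A}
    have hTne : T.Nonempty := ⟨⊥, inferInstance, inferInstance⟩
    obtain ⟨A, hA⟩ := (Set.toFinite T).exists_maximal hTne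
    haveI hAn : A.Normal := hA.1.1
    have hAc : IsMulCommutative A := hA.1.2
    obtain ⟨a, ha⟩ := IsPGroup.iff_card.mp (hLp.to_subgroup A)
    have hmax : ∀ B : Subgroup L, B.Normal → IsMulCommutative B → A ≤ B → B = A := by
      intro B h1 h2 h3
      exact le_antisymm (hA.2 ⟨h1, h2⟩ h3) h3
    have h1 := card_le_of_maximal hLp A hAc hmax a ha
    have ha2 : a ≤ 2 := by
      by_contra hlt
      push Not at hlt
      -- an `E₂₇` inside `A`
      have hd : 3 ^ 3 ∣ Nat.card A := by
        rw [ha]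
        exact pow_dvd_pow 3 hlt
      obtain ⟨E₀, hE₀⟩ := Sylow.exists_subgroup_card_pow_prime (G := A) 3 hd
      have hcard : Nat.card (((E₀.map A.subtype).map L.subtype : Subgroup O)) = 27 := by
        rw [Subgroup.card_map_of_injective L.subtype_injective,
          Subgroup.card_map_of_injective A.subtype_injective, hE₀]
        norm_num
      refine hno' _ ?_ ?_ hcard
      · refine ⟨⟨?_⟩⟩
        rintro ⟨x, hx⟩ ⟨y, hy⟩
        obtain ⟨_, ⟨c, hc, rfl⟩, rfl⟩ := hx
        obtain ⟨_, ⟨e, he, rfl⟩, rfl⟩ := hy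
        apply Subtype.ext
        have h5 := hAc.is_comm.comm c e
        exact congrArg (fun z : A => ((z : L) : O)) h5
      · rintro _ ⟨_, ⟨c, hc, rfl⟩, rfl⟩
        exact hL3 _ (c : L).2
    have h3 : a * (a + 1) / 2 ≤ 3 := by
      interval_cases a <;> norm_num
    exact h1.trans (by
      calc 3 ^ (a * (a + 1) / 2) ≤ 3 ^ 3 := Nat.pow_le_pow_right (by norm_num) h3
        _ = 27 := by norm_num)
  -- the fixed points on `L`
  set J : Subgroup O := L ⊓ fixS φ with hJ
  have hJlt : Nat.card J < Nat.card L := by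
    apply Nat.lt_of_le_of_ne (Subgroup.card_le_of_le inf_le_left)
    intro h
    have h1 : J = L := Subgroup.eq_of_le_of_card_ge inf_le_left h.ge
    have h3 : x₀ ∈ J := h1 ▸ hx₀L
    exact hx₀ h3.2
  have hmod := card_modEq_fix φ hφ L hLφ
  obtain ⟨i, hi⟩ := IsPGroup.iff_card.mp hLp
  obtain ⟨j, hj⟩ := IsPGroup.iff_card.mp (hLp.to_le inf_le_left : IsPGroup 3 J)
  have hi3 : i ≤ 3 := by
    by_contra hlt
    push Not at hlt
    have h3 : 3 ^ 4 ≤ 3 ^ i := Nat.pow_le_pow_right (by norm_num) hlt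
    rw [hi] at hLcard
    omega
  have hpdvd : p ∣ Nat.card L - Nat.card J := (Nat.modEq_iff_dvd' hJlt.le).mp hmod.symm
  rw [hi, hj] at hpdvd hJlt
  have hji : j < i := (Nat.pow_lt_pow_iff_right (by norm_num)).mp hJlt
  have hpn : ∀ m : ℕ, (m = 2 ∨ m = 8 ∨ m = 6 ∨ m = 24 ∨ m = 18) → ¬ p ∣ m := by
    intro m hm hd
    have hcases : p = 2 ∨ p = 3 := by
      rcases hm with rfl | rfl | rfl | rfl | rfl
      · left
        exact (Nat.prime_dvd_prime_iff_eq hp.out (by norm_num)).mp hd
      · left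
        have h8 : (8 : ℕ) = 2 ^ 3 := by norm_num
        rw [h8] at hd
        exact (Nat.prime_dvd_prime_iff_eq hp.out (by norm_num)).mp (hp.out.dvd_of_dvd_pow hd)
      · have h8 : (6 : ℕ) = 2 * 3 := by norm_num
        rw [h8] at hd
        rcases (Nat.Prime.dvd_mul hp.out).mp hd with h | h
        · left
          exact (Nat.prime_dvd_prime_iff_eq hp.out (by norm_num)).mp h
        · right
          exact (Nat.prime_dvd_prime_iff_eq hp.out (by norm_num)).mp h
      · have h8 : (24 : ℕ) = 2 ^ 3 * 3 := by norm_num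
        rw [h8] at hd
        rcases (Nat.Prime.dvd_mul hp.out).mp hd with h | h
        · left
          exact (Nat.prime_dvd_prime_iff_eq hp.out (by norm_num)).mp (hp.out.dvd_of_dvd_pow h)
        · right
          exact (Nat.prime_dvd_prime_iff_eq hp.out (by norm_num)).mp h
      · have h8 : (18 : ℕ) = 2 * 3 ^ 2 := by norm_num
        rw [h8] at hd
        rcases (Nat.Prime.dvd_mul hp.out).mp hd with h | h
        · left
          exact (Nat.prime_dvd_prime_iff_eq hp.out (by norm_num)).mp h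
        · right
          exact (Nat.prime_dvd_prime_iff_eq hp.out (by norm_num)).mp (hp.out.dvd_of_dvd_pow h)
    omega
  have hj0 : i = 3 ∧ j = 0 := by
    interval_cases i <;> interval_cases j <;> first
      | (exact ⟨rfl, rfl⟩)
      | (exfalso; revert hpdvd; norm_num; first
          | exact hpn 2 (by simp)
          | exact hpn 8 (by simp)
          | exact hpn 6 (by simp)
          | exact hpn 24 (by simp)
          | exact hpn 18 (by simp))
  obtain ⟨rfl, rfl⟩ := hj0
  have hJ1 : J = ⊥ := Subgroup.eq_bot_of_card_eq J (by simpa using hj)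
  -- the centre of `L`
  set W : Subgroup O := L ⊓ centralizer (L : Set O) with hW
  have hWφ : ∀ x ∈ W, φ x ∈ W := by
    rintro x ⟨hx, hxc⟩
    refine ⟨hLφ x hx, mem_centralizer_iff.mpr fun y hy => ?_⟩
    have h1 := (mem_centralizer_iff.mp hxc) (φ⁻¹ y) (hLφ' y hy)
    have h3 := congrArg φ h1
    simpa using h3
  have hW1 : Nat.card W ≠ 1 := by
    intro h1
    have hbot := Subgroup.eq_bot_of_card_eq W h1
    have hx₀1 : (⟨x₀, hx₀L⟩ : L) ≠ 1 := by
      intro h
      have h3 : x₀ = 1 := congrArg Subtype.val h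
      rw [h3] at hx₀
      exact hx₀ (map_one φ)
    haveI : Nontrivial L := ⟨⟨_, _, hx₀1⟩⟩
    haveI : Nontrivial (center L) := hLp.center_nontrivial
    obtain ⟨z, hz⟩ := exists_ne (1 : center L)
    have hzW : ((z : L) : O) ∈ W := by
      refine ⟨(z : L).2, mem_centralizer_iff.mpr fun y hy => ?_⟩
      have h3 := (Subgroup.mem_center_iff.mp z.2) ⟨y, hy⟩
      exact congrArg Subtype.val h3
    rw [hbot] at hzW
    apply hz
    apply Subtype.ext
    apply Subtype.ext
    exact hzW
  have hmodW := card_modEq_fix φ hφ W hWφ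
  have hW0 : Nat.card (W ⊓ fixS φ : Subgroup O) = 1 := by
    have h1 : W ⊓ fixS φ ≤ J := fun x hx => ⟨hx.1.1, hx.2⟩
    rw [hJ1] at h1
    have h3 : W ⊓ fixS φ = ⊥ := le_bot_iff.mp h1
    rw [h3]
    simp
  rw [hW0] at hmodW
  obtain ⟨w, hw⟩ := IsPGroup.iff_card.mp (hLp.to_le inf_le_left : IsPGroup 3 W)
  have hwle : 3 ^ w ≤ 3 ^ 3 := by
    rw [← hw, ← hi]
    exact Subgroup.card_le_of_le inf_le_left
  have hw3 : w ≤ 3 := (Nat.pow_le_pow_iff_right (by norm_num)).mp hwle
  have hcW : 1 ≤ Nat.card W := Nat.card_pos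
  have hpW : p ∣ Nat.card W - 1 := (Nat.modEq_iff_dvd' hcW).mp hmodW.symm
  rw [hw] at hpW hW1
  have hw33 : w = 3 := by
    interval_cases w
    · exact absurd rfl hW1
    · exfalso
      revert hpW
      norm_num
      exact hpn 2 (by simp)
    · exfalso
      revert hpW
      norm_num
      exact hpn 8 (by simp)
    · rfl
  subst hw33
  have hWL : W = L := Subgroup.eq_of_le_of_card_ge inf_le_left (by rw [hi, hw])
  apply hno' L ?_ hL3 (by rw [hi]; norm_num)
  refine ⟨⟨?_⟩⟩
  rintro ⟨x, hx⟩ ⟨y, hy⟩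
  apply Subtype.ext
  have h1 : x ∈ W := hWL ▸ hx
  exact ((mem_centralizer_iff.mp h1.2) y hy).symm

end Cfsg.Agent.Lib.ThreeTv
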