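import Cfsg.Agent.Lib.ThreeTv.Main
import Cfsg.Agent.Lib.ThreeTv.RankThree
import Cfsg.Agent.Lib.PGroups.NormalRankTwo
import Cfsg.Agent.Lib.CaseTh.SolvableCharP
import Cfsg.Agent.Lib.CharDeep.Winter.Crit
import Cfsg.Agent.Lib.Core.Basic

/-!
# Assembly of the two cases in a group `S` acting on `A`
-/

set_option autoImplicit false
set_option linter.unusedSectionVars false

namespace Cfsg.Agent.Lib.ThreeTv

open Subgroup Cfsg Cfsg.Agent.Lib.Core.Basic
open scoped Pointwise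

variable {S : Type*} [Group S] [Finite S] {A : Type*} [CommGroup A] [Finite A]

theorem card_le_of_pullback (τ : S →* MulAut A) (F : Subgroup S) (Φ K : Subgroup (MulAut A))
    (hF : F.map τ ≤ Φ) {m : ℕ} (hK : K.relIndex Φ ≤ m) :
    Nat.card F ≤ m * Nat.card (F ⊓ K.comap τ : Subgroup S) := by
  have h1 : (F ⊓ K.comap τ).relIndex F * Nat.card (F ⊓ K.comap τ : Subgroup S) = Nat.card F := by
    have := relIndex_mul_relIndex ⊥ (F ⊓ K.comap τ) F bot_le inf_le_left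
    rw [relIndex_bot_left, relIndex_bot_left] at this
    rw [mul_comm]
    exact this
  have h3 : (F ⊓ K.comap τ).relIndex F = K.relIndex (F.map τ) := by
    rw [inf_comm, Subgroup.inf_relIndex_right, Subgroup.relIndex_comap]
  have h4 : K.relIndex (F.map τ) ≤ K.relIndex Φ := by
    apply Subgroup.relIndex_le_of_le_right hF
    exact (K.subgroupOf Φ).index_ne_zero_of_finite
  rw [← h1, h3]
  exact Nat.mul_le_mul_right _ (h4.trans hK)

/-- The case of an `E₂₇`. -/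
theorem asm_p3 (h2 : ∀ x : A, x ^ 2 = 1) (τ : S →* MulAut A) (a : S) (ha : ∃ k : ℕ, a ^ 3 ^ k = 1)
    (ht : τ a ^ 3 = 1) (hV : Nat.card (VV (τ a)) = 4) (E : Subgroup S)
    (hE : IsElementaryAbelian 3 E) (hE3 : Nat.card E = 27) :
    ∃ F F₀ : Subgroup S, IsElementaryAbelian 3 F ∧ Nat.card F = 27 ∧ F₀ ≤ F ∧
      (∀ g ∈ F₀, ∀ v ∈ VV (τ a), τ g v = v) ∧ 9 ≤ Nat.card F₀ := by
  classical
  haveI h3f : Fact (Nat.Prime 3) := ⟨by norm_num⟩
  obtain ⟨k, hk⟩ := ha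
  have hap : IsPGroup 3 (zpowers a) := by
    rintro ⟨_, z, rfl⟩
    refine ⟨k, Subtype.ext ?_⟩
    show (a ^ z) ^ 3 ^ k = 1
    rw [← zpow_natCast, ← zpow_mul, mul_comm, zpow_mul, zpow_natCast, hk, one_zpow]
  obtain ⟨P, hP⟩ := hap.exists_le_sylow
  have haP : a ∈ P := hP (mem_zpowers a)
  have hEp : IsPGroup 3 E := fun x => ⟨1, Subtype.ext (by simpa using hE.2 x.1 x.2)⟩
  obtain ⟨P', hP'⟩ := hEp.exists_le_sylow
  obtain ⟨g, hg⟩ := MulAction.exists_smul_eq S P' P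
  -- conjugate `E` into `P`
  set E' : Subgroup S := E.map (MulAut.conj g).toMonoidHom with hE'
  have hE'P : E' ≤ P := by
    rintro _ ⟨x, hx, rfl⟩
    have h1 : MulAut.conj g • x ∈ MulAut.conj g • ((P' : Subgroup S)) :=
      Subgroup.smul_mem_pointwise_smul _ _ _ (hP' hx)
    rw [← Sylow.coe_subgroup_smul, hg] at h1
    exact h1
  have hE'c : ∀ x ∈ E', ∀ y ∈ E', x * y = y * x := by
    rintro _ ⟨x, hx, rfl⟩ _ ⟨y, hy, rfl⟩
    have := hE.1.is_comm.comm ⟨x, hx⟩ ⟨y, hy⟩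
    have h1 : x * y = y * x := congrArg Subtype.val this
    rw [← map_mul, ← map_mul, h1]
  have hE'e : ∀ x ∈ E', x ^ 3 = 1 := by
    rintro _ ⟨x, hx, rfl⟩
    rw [← map_pow, hE.2 x hx, map_one]
  have hE'card : Nat.card E' = 27 := by
    rw [hE', Subgroup.card_map_of_injective (MulAut.conj g).injective, hE3]
  have hPp : IsPGroup 3 (P : Subgroup S) := P.isPGroup'
  -- a normal `E₂₇` of `P`
  have hN : ∃ N : Subgroup (P : Subgroup S), N.Normal ∧ IsMulCommutative N ∧ (∀ x ∈ N, x ^ 3 = 1) ∧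
      Nat.card N = 3 ^ 3 := by
    by_contra hno
    push Not at hno
    have h1 := Cfsg.Agent.Lib.PGroups.NormalRankTwo.card_le_of_no_normal_cube (p := 3) (by norm_num) hPp
      (fun A h1 h3 h4 h5 => hno A h1 h3 h4 h5) (E'.subgroupOf P)
      ⟨⟨by
        rintro ⟨⟨x, hx⟩, hx'⟩ ⟨⟨y, hy⟩, hy'⟩
        apply Subtype.ext
        apply Subtype.ext
        exact hE'c x hx' y hy'⟩⟩
      (by
        rintro ⟨x, hx⟩ hx'
        apply Subtype.ext
        exact hE'e x hx')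
    have h3 : Nat.card (E'.subgroupOf (P : Subgroup S)) = Nat.card E' :=
      Nat.card_congr (subgroupOfEquivOfLe hE'P).toEquiv
    rw [h3, hE'card] at h1
    norm_num at h1
  obtain ⟨N, hNn, hNc, hNe, hNcard⟩ := hN
  set F : Subgroup S := N.map (P : Subgroup S).subtype with hF
  have hFcomm : ∀ x ∈ F, ∀ y ∈ F, x * y = y * x := by
    rintro _ ⟨x, hx, rfl⟩ _ ⟨y, hy, rfl⟩
    have := hNc.is_comm.comm ⟨x, hx⟩ ⟨y, hy⟩
    exact congrArg (fun z : N => ((z : (P : Subgroup S)) : S)) this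
  have hFe : ∀ x ∈ F, x ^ 3 = 1 := by
    rintro _ ⟨x, hx, rfl⟩
    exact congrArg Subtype.val (hNe x hx)
  have hFcard : Nat.card F = 27 := by
    rw [hF, Subgroup.card_map_of_injective (P : Subgroup S).subtype_injective, hNcard]
    norm_num
  have hFP : F ≤ P := by
    rintro _ ⟨x, -, rfl⟩
    exact x.2
  set t := τ a with ht'
  have hΦp : IsPGroup 3 ((P : Subgroup S).map τ) := hPp.map τ |>.to_le (le_refl _) |> fun h => h
  have htΦ : t ∈ (P : Subgroup S).map τ := ⟨a, haP, rfl⟩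
  have hnorm : ∀ f ∈ F, (VV t).map (τ f).toMonoidHom = VV t := by
    intro f hf
    have heF : a⁻¹ * (f * a * f⁻¹) ∈ F := by
      obtain ⟨f', hf', rfl⟩ := hf
      let a' : (P : Subgroup S) := ⟨a, haP⟩
      have h1 : a'⁻¹ * f' * a'⁻¹⁻¹ ∈ N := hNn.conj_mem _ hf' _
      have h3 : a'⁻¹ * (f' * a' * f'⁻¹) = (a'⁻¹ * f' * a'⁻¹⁻¹) * f'⁻¹ := by group
      refine ⟨a'⁻¹ * (f' * a' * f'⁻¹), ?_, rfl⟩
      rw [h3]
      exact N.mul_mem h1 (N.inv_mem hf')
    have hcm : Commute (t⁻¹ * (τ f * t * (τ f)⁻¹)) (τ f) := by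
      have h1 : t⁻¹ * (τ f * t * (τ f)⁻¹) = τ (a⁻¹ * (f * a * f⁻¹)) := by
        simp only [map_mul, map_inv, ht']
      rw [h1]
      show τ _ * τ f = τ f * τ _
      rw [← map_mul, ← map_mul, hFcomm _ heF _ hf]
    have hf3 : τ f ^ 3 = 1 := by rw [← map_pow, hFe f hf, map_one]
    exact norm_p3 h2 ht hV hΦp htΦ ⟨f, hFP hf, rfl⟩ hf3 hcm
  have hSt : F.map τ ≤ St (VV t) := by
    rintro _ ⟨f, hf, rfl⟩
    exact mem_St_of_map_eq (hnorm f hf)
  obtain ⟨K, hKP, hKfix, hd1, hd2⟩ := exists_fix_subgroup hSt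
  have hFp : IsPGroup 3 F := fun x => ⟨1, Subtype.ext (by simpa using hFe x.1 x.2)⟩
  have hΦ'p : IsPGroup 3 (F.map τ) := hFp.map τ
  have hcard6 : Nat.card (MulAut (VV t)) = 6 := by
    have hc : ∀ x y : VV t, x * y = y * x := fun x y => mul_comm x y
    have hpow : ∀ x : VV t, x ^ 2 = 1 := fun x => Subtype.ext (by simpa using h2 x.1)
    haveI : Fact (Nat.Prime 2) := ⟨Nat.prime_two⟩
    rw [Cfsg.Agent.Lib.CharDeep.PartBound.card_mulAut_elem hc hpow (d := 2) (by rw [hV]; norm_num)]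
    decide
  rw [hcard6] at hd2
  obtain ⟨n, hn⟩ := IsPGroup.iff_card.mp hΦ'p
  rw [hn] at hd1
  have hle3 : K.relIndex (F.map τ) ≤ 3 := by
    obtain ⟨j, -, hj⟩ := (Nat.dvd_prime_pow (by norm_num : Nat.Prime 3)).mp hd1
    rw [hj] at hd2 ⊢
    rcases j with _ | _ | j
    · norm_num
    · norm_num
    · exfalso
      have h3 : 3 ^ 2 ∣ 6 := (pow_dvd_pow 3 (by omega)).trans hd2
      norm_num at h3
  have hpull := card_le_of_pullback τ F (F.map τ) K le_rfl hle3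
  refine ⟨F, F ⊓ K.comap τ, ⟨⟨⟨?_⟩⟩, hFe⟩, hFcard, inf_le_left, ?_, ?_⟩
  · rintro ⟨x, hx⟩ ⟨y, hy⟩
    exact Subtype.ext (hFcomm x hx y hy)
  · intro g hg v hv
    exact hKfix _ hg.2 v hv
  · rw [hFcard] at hpull
    omega


/-- A Sylow `p`-subgroup of a normal `3'`-subgroup normalized by a `3`-element. -/
theorem exists_sylow_fixed {p : ℕ} [hp : Fact p.Prime] (B : Subgroup S) [hB : B.Normal]
    (hBc : (Nat.card B).Coprime 3) (a : S) (ha : ∃ k : ℕ, a ^ 3 ^ k = 1) :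
    ∃ R : Sylow p B, ∀ x ∈ (R : Subgroup B), (MulAut.conjNormal a x : B) ∈ (R : Subgroup B) := by
  classical
  haveI h3f : Fact (Nat.Prime 3) := ⟨by norm_num⟩
  obtain ⟨k, hk⟩ := ha
  have hap : IsPGroup 3 (zpowers a) := by
    rintro ⟨_, z, rfl⟩
    refine ⟨k, Subtype.ext ?_⟩
    show (a ^ z) ^ 3 ^ k = 1
    rw [← zpow_natCast, ← zpow_mul, mul_comm, zpow_mul, zpow_natCast, hk, one_zpow]
  let hom : zpowers a →* MulAut B := (MulAut.conjNormal (H := B)).comp (zpowers a).subtype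
  letI : MulAction (zpowers a) (Sylow p B) := MulAction.compHom _ hom
  have hm := hap.card_modEq_card_fixedPoints (Sylow p B)
  have hndvd : ¬ 3 ∣ Nat.card (Sylow p B) := by
    intro h3
    have h4 : Nat.card (Sylow p B) ∣ Nat.card B :=
      (Sylow.card_dvd_index (default : Sylow p B)).trans (Subgroup.index_dvd_card _)
    have h5 := h3.trans h4
    have h6 : Nat.Coprime 3 3 := Nat.Coprime.coprime_dvd_left h5 hBc
    norm_num at h6
  have hne : (MulAction.fixedPoints (zpowers a) (Sylow p B)).Nonempty := by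
    by_contra hno
    rw [Set.not_nonempty_iff_eq_empty] at hno
    rw [hno] at hm
    have h0 : Nat.card (↑(∅ : Set (Sylow p B))) = 0 := by simp
    rw [h0] at hm
    exact hndvd ((Nat.modEq_zero_iff_dvd).mp hm)
  obtain ⟨R, hR⟩ := hne
  refine ⟨R, fun x hx => ?_⟩
  have h1 : (⟨a, mem_zpowers a⟩ : zpowers a) • R = R := hR _
  have h3 : (MulAut.conjNormal a : MulAut B) • R = R := h1
  have h4 : ((MulAut.conjNormal a : MulAut B) • R : Sylow p B) = _ := h3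
  have h5 : (MulAut.conjNormal a : MulAut B) • x ∈ (MulAut.conjNormal a : MulAut B) • (R : Subgroup B) :=
    Subgroup.smul_mem_pointwise_smul _ _ _ hx
  rw [← Sylow.pointwise_smul_def, h3] at h5
  exact h5

/-- The case `E ≤ O_{3'}(S)`. -/
theorem asm_p5 (h2 : ∀ x : A, x ^ 2 = 1) (τ : S →* MulAut A) (a : S) (ha : ∃ k : ℕ, a ^ 3 ^ k = 1)
    (ht : τ a ^ 3 = 1) (hV : Nat.card (VV (τ a)) = 4) {p : ℕ} [hp : Fact p.Prime] (hp5 : 5 ≤ p)
    (E : Subgroup S) (hE : IsElementaryAbelian p E) (hE3 : Nat.card E = p ^ 3)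
    (hEB : E ≤ pPrimeCore 3 S) :
    ∃ F F₀ : Subgroup S, IsElementaryAbelian p F ∧ Nat.card F = p ^ 3 ∧ F₀ ≤ F ∧
      (∀ g ∈ F₀, ∀ v ∈ VV (τ a), τ g v = v) ∧ p ^ 3 ≤ 7 * Nat.card F₀ := by
  classical
  set B := pPrimeCore 3 S with hB
  haveI hBn : B.Normal := pPrimeCore_normal 3 S
  have hBc : (Nat.card B).Coprime 3 := pPrimeCore_coprime
  obtain ⟨R, hR⟩ := exists_sylow_fixed (p := p) B hBc a ha
  -- conjugate `E` into `R`
  have hEp : IsPGroup p (E.subgroupOf B) := by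
    intro x
    refine ⟨1, Subtype.ext (Subtype.ext ?_)⟩
    simpa using hE.2 _ x.2
  obtain ⟨R', hR'⟩ := hEp.exists_le_sylow
  obtain ⟨g, hg⟩ := MulAction.exists_smul_eq B R' R
  set F : Subgroup S := E.map (MulAut.conj (g : S)).toMonoidHom with hF
  set PB : Subgroup S := (R : Subgroup B).map B.subtype with hPB
  have hFPB : F ≤ PB := by
    rintro _ ⟨x, hx, rfl⟩
    have hxB : x ∈ B := hEB hx
    have h1 : (⟨x, hxB⟩ : B) ∈ E.subgroupOf B := hx
    have h3 : MulAut.conj g • (⟨x, hxB⟩ : B) ∈ MulAut.conj g • ((R' : Subgroup B)) :=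
      Subgroup.smul_mem_pointwise_smul _ _ _ (hR' h1)
    rw [← Sylow.coe_subgroup_smul, hg] at h3
    exact ⟨_, h3, rfl⟩
  have hPBp : IsPGroup p PB := R.isPGroup'.map _
  set t := τ a with ht'
  have hPBa : ∀ y ∈ PB, a * y * a⁻¹ ∈ PB := by
    rintro _ ⟨x, hx, rfl⟩
    exact ⟨_, hR x hx, rfl⟩
  have htP : ∀ g' ∈ PB.map τ, t * g' * t⁻¹ ∈ PB.map τ := by
    rintro _ ⟨y, hy, rfl⟩
    refine ⟨a * y * a⁻¹, hPBa y hy, ?_⟩
    simp only [map_mul, map_inv, ht']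
  obtain ⟨K, hKP, hKfix, hKi⟩ := main_p5 h2 ht hV hp5 (hPBp.map τ) htP
  have hFmap : F.map τ ≤ PB.map τ := Subgroup.map_mono hFPB
  have hpull := card_le_of_pullback τ F (PB.map τ) K hFmap hKi
  have hFcard : Nat.card F = p ^ 3 := by
    rw [hF, Subgroup.card_map_of_injective (MulAut.conj (g : S)).injective, hE3]
  refine ⟨F, F ⊓ K.comap τ, ⟨⟨⟨?_⟩⟩, ?_⟩, hFcard, inf_le_left, ?_, ?_⟩
  · rintro ⟨_, x, hx, rfl⟩ ⟨_, y, hy, rfl⟩
    apply Subtype.ext
    have := hE.1.is_comm.comm ⟨x, hx⟩ ⟨y, hy⟩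
    have h1 : x * y = y * x := congrArg Subtype.val this
    show _ * _ = _ * _
    rw [← map_mul, ← map_mul, h1]
  · rintro _ ⟨x, hx, rfl⟩
    rw [← map_pow, hE.2 x hx, map_one]
  · intro g' hg' v hv
    exact hKfix _ hg'.2 v hv
  · rw [← hFcard]
    exact hpull

/-- The case `E ≰ O_{3'}(S)`: there is an `E₂₇`. -/
theorem exists_E27_of_not_le {S : Type*} [Group S] [Finite S] [Group.IsSolvable S] {p : ℕ} [hp : Fact p.Prime]
    (hp5 : 5 ≤ p) (E : Subgroup S)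
    (hE : IsElementaryAbelian p E) (hnot : ¬ E ≤ pPrimeCore 3 S) :
    ∃ E' : Subgroup S, IsElementaryAbelian 3 E' ∧ Nat.card E' = 27 := by
  classical
  haveI h3f : Fact (Nat.Prime 3) := ⟨by norm_num⟩
  set B := pPrimeCore 3 S with hB
  haveI hBn : B.Normal := pPrimeCore_normal 3 S
  have hBc : (Nat.card B).Coprime 3 := pPrimeCore_coprime
  obtain ⟨f, hfE, hfB⟩ := Set.not_subset.mp hnot
  let π : S →* S ⧸ B := QuotientGroup.mk' B
  have hπ : Function.Surjective π := QuotientGroup.mk'_surjective B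
  have hbot : pPrimeCore 3 (S ⧸ B) = ⊥ := pPrimeCore_quotient_eq_bot
  have hC := Cfsg.Agent.Lib.CaseTh.SolvableCharP.centralizer_pCore_le (X := S ⧸ B) 3 hbot
  set O := pCore 3 (S ⧸ B) with hO
  haveI hOn : O.Normal := pCore_normal 3 _
  have hOp : IsPGroup 3 O := pCore_isPGroup
  let φ : MulAut O := MulAut.conjNormal (π f)
  have hf1 : π f ≠ 1 := by
    intro h
    exact hfB ((QuotientGroup.eq_one_iff f).mp h)
  have hφp : φ ^ p = 1 := by
    have : φ ^ p = MulAut.conjNormal (π f ^ p) := by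
      rw [map_pow]
    rw [this, ← map_pow, hE.2 f hfE]
    simp
  have hφ1 : φ ≠ 1 := by
    intro h
    apply hf1
    have h1 : π f ∈ O := by
      apply hC
      rw [mem_centralizer_iff]
      intro y hy
      have h3 := DFunLike.congr_fun h ⟨y, hy⟩
      have h4 : π f * y * (π f)⁻¹ = y := congrArg Subtype.val h3
      have h5 : π f * y = y * π f := mul_inv_eq_iff_eq_mul.mp h4
      exact h5.symm
    obtain ⟨k, hk⟩ := hOp ⟨π f, h1⟩
    have h5 : π f ^ 3 ^ k = 1 := congrArg Subtype.val hk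
    have h6 : π f ^ p = 1 := by rw [← map_pow, hE.2 f hfE, map_one]
    have h7 : orderOf (π f) ∣ 3 ^ k := orderOf_dvd_of_pow_eq_one h5
    have h8 : orderOf (π f) ∣ p := orderOf_dvd_of_pow_eq_one h6
    have h9 : Nat.Coprime (3 ^ k) p := by
      apply Nat.Coprime.pow_left
      exact (Nat.coprime_primes (by norm_num) hp.out).mpr (by omega)
    exact orderOf_eq_one_iff.mp (Nat.eq_one_of_dvd_coprimes h9 h7 h8)
  obtain ⟨E₀, hE₀, hE₀c⟩ := exists_cube_of_aut hOp hp5 φ hφp hφ1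
  -- lift
  set E₁ : Subgroup (S ⧸ B) := E₀.map O.subtype with hE₁
  have hE₁p : IsPGroup 3 E₁ := by
    rintro ⟨_, x, hx, rfl⟩
    refine ⟨1, Subtype.ext ?_⟩
    have := hE₀.2 x hx
    simpa using congrArg Subtype.val this
  obtain ⟨E', hE'p, hE'm⟩ := Cfsg.Agent.Lib.CharDeep.Winter.exists_lift_pgroup π hπ hE₁p
  have hinj : ∀ x ∈ E', π x = 1 → x = 1 := by
    intro x hx h1
    have hxB : x ∈ B := (QuotientGroup.eq_one_iff x).mp h1
    obtain ⟨k, hk⟩ := hE'p ⟨x, hx⟩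
    have h5 : x ^ 3 ^ k = 1 := congrArg Subtype.val hk
    have h6 : orderOf x ∣ 3 ^ k := orderOf_dvd_of_pow_eq_one h5
    have h7 : orderOf x ∣ Nat.card B := by
      have := orderOf_dvd_natCard (⟨x, hxB⟩ : B)
      rwa [Subgroup.orderOf_mk] at this
    have h8 : Nat.Coprime (3 ^ k) (Nat.card B) := Nat.Coprime.pow_left _ hBc.symm
    exact orderOf_eq_one_iff.mp (Nat.eq_one_of_dvd_coprimes h8 h6 h7)
  have hmapmem : ∀ x ∈ E', π x ∈ E₁ := fun x hx => hE'm ▸ ⟨x, hx, rfl⟩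
  refine ⟨E', ⟨⟨⟨?_⟩⟩, ?_⟩, ?_⟩
  · rintro ⟨x, hx⟩ ⟨y, hy⟩
    apply Subtype.ext
    have hxm := hmapmem x hx
    have hym := hmapmem y hy
    obtain ⟨x', hx', hxe⟩ := hxm
    obtain ⟨y', hy', hye⟩ := hym
    have h1 := hE₀.1.is_comm.comm ⟨x', hx'⟩ ⟨y', hy'⟩
    have h3 : x' * y' = y' * x' := congrArg Subtype.val h1
    have h4 : π x * π y = π y * π x := by
      rw [← hxe, ← hye]
      show (x' : S ⧸ B) * (y' : S ⧸ B) = (y' : S ⧸ B) * (x' : S ⧸ B)
      exact congrArg Subtype.val h3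
    have h5 : π (x * y * x⁻¹ * y⁻¹) = 1 := by
      simp only [map_mul, map_inv, h4]
      group
    have h6 := hinj _ (E'.mul_mem (E'.mul_mem (E'.mul_mem hx hy) (E'.inv_mem hx)) (E'.inv_mem hy)) h5
    rw [mul_inv_eq_one, mul_inv_eq_iff_eq_mul] at h6
    exact h6
  · intro x hx
    apply hinj _ (E'.pow_mem hx 3)
    obtain ⟨x', hx', hxe⟩ := hmapmem x hx
    rw [map_pow, ← hxe]
    exact congrArg Subtype.val (hE₀.2 x' hx')
  · have h1 : Nat.card E' = Nat.card E₁ := by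
      rw [← hE'm]
      apply Nat.card_congr
      refine Equiv.ofBijective (fun x => ⟨π x, ⟨x, x.2, rfl⟩⟩) ⟨?_, ?_⟩
      · intro x y hxy
        have h3 : π x.1 = π y.1 := congrArg Subtype.val hxy
        have h4 : π (x.1 * y.1⁻¹) = 1 := by
          rw [map_mul, map_inv, h3, mul_inv_cancel]
        have h5 := hinj _ (E'.mul_mem x.2 (E'.inv_mem y.2)) h4
        apply Subtype.ext
        exact mul_inv_eq_one.mp h5
      · rintro ⟨_, x, hx, rfl⟩
        exact ⟨⟨x, hx⟩, rfl⟩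
    rw [h1, hE₁, Subgroup.card_map_of_injective O.subtype_injective, hE₀c]

end Cfsg.Agent.Lib.ThreeTv
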