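import Cfsg.Agent.Lib.CharDeep.PartBound.Chief
import Cfsg.Agent.Lib.PGroups.Special
import Mathlib

/-!
# Automorphisms of order three with a small commutator on an elementary abelian 2-group

`A` is an elementary abelian 2-group.  For `t : MulAut A`, `VV t` is the commutator `[A, t]`.
Subgroups of automorphisms with `[A, g] ≤ Z` embed, when of odd order, into `MulAut Z`.
-/

set_option autoImplicit false
set_option linter.unusedSectionVars false

namespace Cfsg.Agent.Lib.ThreeTv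

open Subgroup

variable {A : Type*} [CommGroup A]

/-- The map `m ↦ t m * m⁻¹`. -/
def dl (t : MulAut A) : A →* A where
  toFun m := t m * m⁻¹
  map_one' := by simp
  map_mul' x y := by
    rw [map_mul, mul_inv]
    simp only [mul_assoc, mul_left_comm, mul_comm]

@[simp] theorem dl_apply (t : MulAut A) (m : A) : dl t m = t m * m⁻¹ := rfl

/-- The commutator `[A, t]`. -/
def VV (t : MulAut A) : Subgroup A := (dl t).range

theorem dl_mem (t : MulAut A) (m : A) : t m * m⁻¹ ∈ VV t := ⟨m, rfl⟩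

theorem mem_VV {t : MulAut A} {v : A} : v ∈ VV t ↔ ∃ m, t m * m⁻¹ = v := Iff.rfl

/-- The subgroup of automorphisms `g` with `[A, g] ≤ Z`. -/
def Lz (Z : Subgroup A) : Subgroup (MulAut A) where
  carrier := {g | ∀ m, g m * m⁻¹ ∈ Z}
  mul_mem' := by
    intro a b ha hb m
    have h1 := ha (b m)
    have h2 := hb m
    have : (a * b) m * m⁻¹ = (a (b m) * (b m)⁻¹) * (b m * m⁻¹) := by
      rw [MulAut.mul_apply]
      group
    rw [this]
    exact Z.mul_mem h1 h2
  one_mem' := by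
    intro m
    simp [Z.one_mem]
  inv_mem' := by
    intro a ha m
    have h1 := ha (a⁻¹ m)
    have : a⁻¹ m * m⁻¹ = (a (a⁻¹ m) * (a⁻¹ m)⁻¹)⁻¹ := by
      rw [show a (a⁻¹ m) = m by simp]
      group
    rw [this]
    exact Z.inv_mem h1

theorem Lz_mono {Y Z : Subgroup A} (h : Y ≤ Z) {g : MulAut A} (hg : g ∈ Lz Y) : g ∈ Lz Z :=
  fun m => h (hg m)

theorem mem_Lz {Z : Subgroup A} {g : MulAut A} : g ∈ Lz Z ↔ ∀ m, g m * m⁻¹ ∈ Z := Iff.rfl

theorem mem_Lz_iff_VV_le {Z : Subgroup A} {g : MulAut A} : g ∈ Lz Z ↔ VV g ≤ Z := by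
  constructor
  · rintro h _ ⟨m, rfl⟩
    exact h m
  · intro h m
    exact h (dl_mem g m)

theorem map_mem_of_mem_Lz {Z : Subgroup A} {g : MulAut A} (hg : g ∈ Lz Z) {z : A} (hz : z ∈ Z) :
    g z ∈ Z := by
  have h := Z.mul_mem (hg z) hz
  simpa using h

/-- Restriction to `Z`. -/
def res (Z : Subgroup A) : Lz Z →* MulAut Z where
  toFun g :=
    { toFun := fun z => ⟨g.1 z.1, map_mem_of_mem_Lz g.2 z.2⟩
      invFun := fun z => ⟨g.1⁻¹ z.1, map_mem_of_mem_Lz ((Lz Z).inv_mem g.2) z.2⟩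
      left_inv := fun z => Subtype.ext (by simp)
      right_inv := fun z => Subtype.ext (by simp)
      map_mul' := fun x y => Subtype.ext (by simp) }
  map_one' := by
    ext z
    rfl
  map_mul' x y := by
    ext z
    rfl

@[simp] theorem res_apply_coe (Z : Subgroup A) (g : Lz Z) (z : Z) : ((res Z g z : Z) : A) = g.1 z.1 :=
  rfl

theorem sq_eq_one_of_res_eq_one (h2 : ∀ x : A, x ^ 2 = 1) {Z : Subgroup A} {g : Lz Z} (hg : res Z g = 1) :
    g.1 ^ 2 = 1 := by
  ext m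
  have h1 : g.1 (g.1 m * m⁻¹) = g.1 m * m⁻¹ := by
    have := DFunLike.congr_fun hg ⟨g.1 m * m⁻¹, g.2 m⟩
    exact congrArg Subtype.val this
  have h3 : g.1 (g.1 m) = (g.1 m * m⁻¹) * g.1 m := by
    have : g.1 (g.1 m) = g.1 (g.1 m * m⁻¹) * g.1 m := by
      rw [map_mul, map_inv]
      group
    rw [this, h1]
  have h4 := h2 (g.1 m * m⁻¹)
  have h5 : (g.1 m * m⁻¹) * (g.1 m * m⁻¹) = 1 := by rwa [sq] at h4
  rw [pow_two, MulAut.mul_apply, h3]
  have h6 : (g.1 m * m⁻¹) * g.1 m = ((g.1 m * m⁻¹) * (g.1 m * m⁻¹)) * m := by group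
  rw [h6, h5, one_mul]
  rfl

theorem eq_one_of_odd_of_sq {G : Type*} [Group G] [Finite G] (hG : Odd (Nat.card G)) {x : G}
    (hx : x ^ 2 = 1) : x = 1 := by
  have h1 : orderOf x ∣ 2 := orderOf_dvd_of_pow_eq_one hx
  have h2 : orderOf x ∣ Nat.card G := orderOf_dvd_natCard x
  have h3 : Nat.Coprime 2 (Nat.card G) := Nat.coprime_two_left.mpr hG
  have h4 : orderOf x = 1 := Nat.eq_one_of_dvd_coprimes h3 h1 h2
  exact orderOf_eq_one_iff.mp h4

/-- An odd order subgroup of `Lz Z` embeds into `MulAut Z`. -/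
theorem card_dvd_of_le_Lz [Finite A] (h2 : ∀ x : A, x ^ 2 = 1) {Z : Subgroup A} {D : Subgroup (MulAut A)}
    (hD : D ≤ Lz Z) (hodd : Odd (Nat.card D)) : Nat.card D ∣ Nat.card (MulAut Z) := by
  haveI : Finite (MulAut A) := inferInstance
  let f : D →* MulAut Z := (res Z).comp (Subgroup.inclusion hD)
  have hf : Function.Injective f := by
    rw [injective_iff_map_eq_one]
    intro g hg
    have h3 := sq_eq_one_of_res_eq_one h2 (g := Subgroup.inclusion hD g) hg
    apply eq_one_of_odd_of_sq hodd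
    apply Subtype.ext
    exact h3
  exact Subgroup.card_dvd_of_injective f hf

theorem card_mulAut_dvd [Finite A] (h2 : ∀ x : A, x ^ 2 = 1) {Z : Subgroup A} (hZ : Nat.card Z ≤ 16) :
    Nat.card (MulAut Z) ∣ 20160 := by
  classical
  have hp : Fact (Nat.Prime 2) := ⟨Nat.prime_two⟩
  have hZ2 : IsPGroup 2 Z := fun z => ⟨1, by
    apply Subtype.ext
    simpa using h2 z.1⟩
  obtain ⟨k, hk⟩ := IsPGroup.iff_card.mp hZ2
  have hk4 : k ≤ 4 := by
    by_contra hlt
    push Not at hlt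
    have h3 : 2 ^ 5 ≤ 2 ^ k := Nat.pow_le_pow_right (by norm_num) hlt
    rw [hk] at hZ
    omega
  have hc : ∀ x y : Z, x * y = y * x := fun x y => mul_comm x y
  have hpow : ∀ x : Z, x ^ 2 = 1 := fun x => Subtype.ext (by simpa using h2 x.1)
  rw [Cfsg.Agent.Lib.CharDeep.PartBound.card_mulAut_elem hc hpow hk]
  interval_cases k <;> decide


theorem mem_Lz_self (t : MulAut A) : t ∈ Lz (VV t) := fun m => dl_mem t m

theorem VV_mono_of_mem {Z : Subgroup A} {g : MulAut A} (h : g ∈ Lz Z) : VV g ≤ Z :=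
  mem_Lz_iff_VV_le.mp h

theorem VV_mul_le (s t : MulAut A) : VV (s * t) ≤ VV s ⊔ VV t := by
  apply VV_mono_of_mem
  exact (Lz _).mul_mem (Lz_mono le_sup_left (mem_Lz_self s)) (Lz_mono le_sup_right (mem_Lz_self t))

theorem VV_inv_le (t : MulAut A) : VV t⁻¹ ≤ VV t :=
  VV_mono_of_mem ((Lz _).inv_mem (mem_Lz_self t))

theorem VV_pow_le (t : MulAut A) (k : ℕ) : VV (t ^ k) ≤ VV t :=
  VV_mono_of_mem ((Lz _).pow_mem (mem_Lz_self t) k)

theorem VV_zpow_le (t : MulAut A) (k : ℤ) : VV (t ^ k) ≤ VV t :=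
  VV_mono_of_mem ((Lz _).zpow_mem (mem_Lz_self t) k)

theorem VV_conj (g t : MulAut A) : VV (g * t * g⁻¹) = (VV t).map g.toMonoidHom := by
  ext v
  constructor
  · rintro ⟨m, rfl⟩
    refine ⟨t (g⁻¹ m) * (g⁻¹ m)⁻¹, dl_mem t _, ?_⟩
    simp
  · rintro ⟨_, ⟨m, rfl⟩, rfl⟩
    refine ⟨g m, ?_⟩
    simp

theorem card_VV_conj (g t : MulAut A) : Nat.card (VV (g * t * g⁻¹)) = Nat.card (VV t) := by
  rw [VV_conj]
  exact Subgroup.card_map_of_injective g.injective

/-- Powers along a fixed commutator. -/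
theorem pow_of_fixed (e : MulAut A) (m : A) (hfix : e (e m * m⁻¹) = e m * m⁻¹) (n : ℕ) :
    (e m * m⁻¹) ^ n = (e ^ n) m * m⁻¹ := by
  induction n with
  | zero => simp
  | succ n ih =>
    have hv : e m = (e m * m⁻¹) * m := by group
    have h1 : (e ^ (n + 1)) m = (e ^ n) (e m) := by
      rw [pow_succ, MulAut.mul_apply]
    have hen : ∀ j : ℕ, (e ^ j) (e m * m⁻¹) = e m * m⁻¹ := by
      intro j
      induction j with
      | zero => simp
      | succ j ihj =>
        rw [pow_succ, MulAut.mul_apply, hfix, ihj]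
    rw [pow_succ, ih, h1]
    conv_rhs => rw [hv, map_mul, hen]
    simp only [mul_assoc, mul_left_comm, mul_comm]

/-- Automorphisms of odd order act without fixed points on their commutator. -/
theorem eq_one_of_fixed_of_mem (h2 : ∀ x : A, x ^ 2 = 1) {e : MulAut A} {n : ℕ} (hn : Odd n)
    (he : e ^ n = 1) {v : A} (hv : v ∈ VV e) (hfix : e v = v) : v = 1 := by
  obtain ⟨m, rfl⟩ := hv
  have h1 := pow_of_fixed e m hfix n
  rw [he] at h1
  have h3 : (e m * m⁻¹) ^ n = 1 := by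
    rw [h1]
    simp
  have h4 : orderOf (e m * m⁻¹) ∣ n := orderOf_dvd_of_pow_eq_one h3
  have h5 : orderOf (e m * m⁻¹) ∣ 2 := orderOf_dvd_of_pow_eq_one (h2 _)
  have h6 : Nat.Coprime n 2 := Nat.coprime_two_right.mpr hn
  exact orderOf_eq_one_iff.mp (Nat.eq_one_of_dvd_coprimes h6 h4 h5)

theorem card_sup_mul_card_inf [Finite A] (X Y : Subgroup A) :
    Nat.card (X ⊔ Y : Subgroup A) * Nat.card (X ⊓ Y : Subgroup A) = Nat.card X * Nat.card Y := by
  have h1 : X.relIndex (X ⊔ Y) * Nat.card X = Nat.card (X ⊔ Y : Subgroup A) := by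
    have := relIndex_mul_relIndex ⊥ X (X ⊔ Y) bot_le le_sup_left
    rw [relIndex_bot_left, relIndex_bot_left] at this
    rw [mul_comm]
    exact this
  have h3 : (X ⊓ Y).relIndex Y * Nat.card (X ⊓ Y : Subgroup A) = Nat.card Y := by
    have := relIndex_mul_relIndex ⊥ (X ⊓ Y) Y bot_le inf_le_right
    rw [relIndex_bot_left, relIndex_bot_left] at this
    rw [mul_comm]
    exact this
  have h4 : X.relIndex (X ⊔ Y) = (X ⊓ Y).relIndex Y := by
    rw [Subgroup.relIndex_sup_left, Subgroup.inf_relIndex_right]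
  rw [← h1, ← h3, h4]
  ring

end Cfsg.Agent.Lib.ThreeTv
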