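import Cfsg.Agent.Lib.ThreeTv.Basic

/-!
# Action of `p`-groups normalized by `t` on `[A, t]`, `|[A, t]| = 4`

* `main_p5`: a `p`-group (`p ≥ 5`) normalized by `t` has a subgroup of index at most `7` fixing `[A, t]`.
* `norm_p3`: a `3`-group containing `t` and an element `f` with `f³ = 1` commuting with `[t, f]`:
  `f` normalizes `[A, t]`.
-/

set_option autoImplicit false
set_option linter.unusedSectionVars false

namespace Cfsg.Agent.Lib.ThreeTv

open Subgroup

variable {A : Type*} [CommGroup A]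

/-- The stabilizer of `X` among the automorphisms. -/
def St (X : Subgroup A) : Subgroup (MulAut A) where
  carrier := {g | ∀ x, x ∈ X ↔ g x ∈ X}
  mul_mem' := by
    intro a b ha hb x
    rw [MulAut.mul_apply, ← ha, ← hb]
  one_mem' := by
    intro x
    rfl
  inv_mem' := by
    intro a ha x
    have h := ha (a⁻¹ x)
    have h1 : a (a⁻¹ x) = x := by simp
    rw [h1] at h
    exact h.symm

theorem mem_St {X : Subgroup A} {g : MulAut A} : g ∈ St X ↔ ∀ x, x ∈ X ↔ g x ∈ X := Iff.rfl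

/-- Restriction to `X`. -/
def resS (X : Subgroup A) : St X →* MulAut X where
  toFun g :=
    { toFun := fun z => ⟨g.1 z.1, (g.2 z.1).mp z.2⟩
      invFun := fun z => ⟨g.1⁻¹ z.1, (((St X).inv_mem g.2) z.1).mp z.2⟩
      left_inv := fun z => Subtype.ext (by simp)
      right_inv := fun z => Subtype.ext (by simp)
      map_mul' := fun x y => Subtype.ext (by simp) }
  map_one' := by
    ext z
    rfl
  map_mul' x y := by
    ext z
    rfl

@[simp] theorem resS_apply_coe (X : Subgroup A) (g : St X) (z : X) :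
    ((resS X g z : X) : A) = g.1 z.1 := rfl

theorem mem_St_of_map_eq {X : Subgroup A} {g : MulAut A} (h : X.map g.toMonoidHom = X) : g ∈ St X := by
  intro x
  constructor
  · intro hx
    rw [← h]
    exact ⟨x, hx, rfl⟩
  · intro hx
    rw [← h] at hx
    obtain ⟨y, hy, hyx⟩ := hx
    have : y = x := g.injective hyx
    rwa [← this]

theorem mem_St_of_le [Finite A] {X : Subgroup A} {g : MulAut A} (h : ∀ x ∈ X, g x ∈ X) : g ∈ St X := by
  apply mem_St_of_map_eq
  apply Subgroup.eq_of_le_of_card_ge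
  · rintro _ ⟨x, hx, rfl⟩
    exact h x hx
  · exact le_of_eq (Subgroup.card_map_of_injective g.injective).symm

/-- The part of `P` acting trivially on `X`, of index dividing `|Aut X|`. -/
theorem exists_fix_subgroup [Finite A] {X : Subgroup A} {P : Subgroup (MulAut A)} (hP : P ≤ St X) :
    ∃ K : Subgroup (MulAut A), K ≤ P ∧ (∀ g ∈ K, ∀ x ∈ X, g x = x) ∧ K.relIndex P ∣ Nat.card P ∧
      K.relIndex P ∣ Nat.card (MulAut X) := by
  let ρ : P →* MulAut X := (resS X).comp (Subgroup.inclusion hP)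
  refine ⟨ρ.ker.map P.subtype, ?_, ?_, ?_, ?_⟩
  · rintro _ ⟨g, -, rfl⟩
    exact g.2
  · rintro _ ⟨g, hg, rfl⟩ x hx
    have h1 := DFunLike.congr_fun (MonoidHom.mem_ker.mp hg) ⟨x, hx⟩
    exact congrArg Subtype.val h1
  · have h1 : (ρ.ker.map P.subtype).relIndex P = ρ.ker.index := by
      rw [relIndex]
      congr 1
      exact Subgroup.comap_map_eq_self_of_injective P.subtype_injective _
    rw [h1]
    exact Subgroup.index_dvd_card _
  · have h1 : (ρ.ker.map P.subtype).relIndex P = ρ.ker.index := by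
      rw [relIndex]
      congr 1
      exact Subgroup.comap_map_eq_self_of_injective P.subtype_injective _
    rw [h1, Subgroup.index_ker]
    exact Subgroup.card_subgroup_dvd_card _


section gen

variable {G : Type*} [Group G]

theorem G_inv {t : G} (h : t ^ 3 = 1) : t⁻¹ = t * t := by
  rw [inv_eq_iff_mul_eq_one, ← h]
  simp only [pow_succ, pow_zero, one_mul, mul_assoc]

theorem G_conj2 {t : G} (h : t ^ 3 = 1) (g : G) : t * (t * g * t⁻¹) * t⁻¹ = t⁻¹ * g * t := by
  have h4 : t = t⁻¹ * t⁻¹ := by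
    rw [G_inv h]
    have h5 : t * t * (t * t) = t ^ 3 * t := by
      simp only [pow_succ, pow_zero, one_mul, mul_assoc]
    rw [h5, h, one_mul]
  calc t * (t * g * t⁻¹) * t⁻¹ = (t * t) * g * (t⁻¹ * t⁻¹) := by group
    _ = t⁻¹ * g * t := by rw [← G_inv h, ← h4]

theorem G_e (t f : G) : t⁻¹ * (f * t * f⁻¹) = (t⁻¹ * f * t) * f⁻¹ := by group

theorem G_t1 (t f : G) : f * t * f⁻¹ = t * (t⁻¹ * (f * t * f⁻¹)) := by group

theorem G_cube (t e : G) : (t * e) ^ 3 = (t * e * t⁻¹) * (t * (t * e * t⁻¹) * t⁻¹) * (t ^ 3 * e) := by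
  simp only [pow_succ, pow_zero, one_mul]
  group

theorem G_conjcube {t : G} (h : t ^ 3 = 1) (f : G) : (f * t * f⁻¹) ^ 3 = 1 := by
  rw [conj_pow, h]
  group

theorem G_conj_pow (t e : G) (k : ℕ) : t * e ^ k * t⁻¹ = (t * e * t⁻¹) ^ k := by
  rw [conj_pow]

end gen

section main

variable [Finite A] (h2 : ∀ x : A, x ^ 2 = 1) {t : MulAut A} (ht : t ^ 3 = 1)
  (hV : Nat.card (VV t) = 4)

include h2 ht hV

theorem fix_VV {v : A} (hv : v ∈ VV t) (hfix : t v = v) : v = 1 :=
  eq_one_of_fixed_of_mem h2 (n := 3) (by decide) ht hv hfix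

/-- A `t`-invariant subgroup on which `t` moves something contains `[A, t]`. -/
theorem VV_le_of_moved {X : Subgroup A} (hX : ∀ x ∈ X, t x ∈ X) (hm : ∃ x ∈ X, t x ≠ x) : VV t ≤ X := by
  obtain ⟨x, hx, hne⟩ := hm
  set v := t x * x⁻¹ with hv
  have hvX : v ∈ X := X.mul_mem (hX x hx) (X.inv_mem hx)
  have hvV : v ∈ VV t := dl_mem t x
  have hv1 : v ≠ 1 := fun h => hne (mul_inv_eq_one.mp h)
  have htvX : t v ∈ X := hX v hvX
  have htvV : t v ∈ VV t := map_mem_of_mem_Lz (mem_Lz_self t) hvV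
  have htv : t v ≠ v := fun h => hv1 (fix_VV h2 ht hV hvV h)
  have htv1 : t v ≠ 1 := fun h => hv1 (by
    have : t v = t 1 := by rw [h, map_one]
    exact t.injective this)
  set W : Subgroup A := VV t ⊓ X with hW
  have hdvd : Nat.card W ∣ 4 := hV ▸ Subgroup.card_dvd_of_le inf_le_left
  have h3 : 3 ≤ Nat.card W := by
    let f : Fin 3 → W := ![⟨1, W.one_mem⟩, ⟨v, hvV, hvX⟩, ⟨t v, htvV, htvX⟩]
    have hf : Function.Injective f := by
      intro i j hij
      fin_cases i <;> fin_cases j <;> first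
        | rfl
        | (exfalso
           have h := congrArg Subtype.val hij
           simp [f] at h
           first
             | exact hv1 h
             | exact hv1 h.symm
             | exact htv1 h
             | exact htv1 h.symm
             | exact htv h
             | exact htv h.symm)
    have := Nat.card_le_card_of_injective f hf
    simpa using this
  have h4 : Nat.card W = 4 := by
    have h5 := Nat.le_of_dvd (by norm_num) hdvd
    have : Nat.card W = 3 ∨ Nat.card W = 4 := by omega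
    rcases this with h | h
    · rw [h] at hdvd
      norm_num at hdvd
    · exact h
  have h5 : W = VV t := Subgroup.eq_of_le_of_card_ge inf_le_left (by rw [h4, hV])
  rw [← h5]
  exact inf_le_right

omit ht hV in
theorem card_sup_le_of_inf {X Y : Subgroup A} {n : ℕ} (h : n ≤ Nat.card (X ⊓ Y : Subgroup A))
    (hn : 0 < n) {m : ℕ} (hm : Nat.card X * Nat.card Y ≤ n * m) : Nat.card (X ⊔ Y : Subgroup A) ≤ m := by
  have h1 := card_sup_mul_card_inf X Y
  by_contra hlt
  push Not at hlt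
  have h3 : n * (m + 1) ≤ Nat.card (X ⊓ Y : Subgroup A) * Nat.card (X ⊔ Y : Subgroup A) :=
    Nat.mul_le_mul h hlt
  have h4 : n * m < n * (m + 1) := Nat.mul_lt_mul_of_pos_left (Nat.lt_succ_self m) hn
  rw [mul_comm (Nat.card (X ⊓ Y : Subgroup A))] at h3
  omega

omit ht hV in
/-- A `p`-group in `Lz Z`, `|Z| ≤ 16`, `p` odd: its order divides `20160`. -/
theorem card_dvd_of_pgroup {p : ℕ} [hp : Fact p.Prime] (hp2 : p ≠ 2) {D : Subgroup (MulAut A)}
    (hD : IsPGroup p D) {Z : Subgroup A} (hZ : Nat.card Z ≤ 16) (hDZ : D ≤ Lz Z) :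
    Nat.card D ∣ 20160 := by
  obtain ⟨n, hn⟩ := IsPGroup.iff_card.mp hD
  have hodd : Odd (Nat.card D) := by
    rw [hn]
    exact (hp.out.odd_of_ne_two hp2).pow
  exact (card_dvd_of_le_Lz h2 hDZ hodd).trans (card_mulAut_dvd h2 hZ)

omit ht hV in
/-- A `p`-group, `p ≥ 5`, in `Lz Z`, `|Z| ≤ 16`. -/
theorem card_cases {p : ℕ} [hp : Fact p.Prime] (hp5 : 5 ≤ p) {D : Subgroup (MulAut A)}
    (hD : IsPGroup p D) {Z : Subgroup A} (hZ : Nat.card Z ≤ 16) (hDZ : D ≤ Lz Z) :
    Nat.card D = 1 ∨ (Nat.card D = p ∧ (p = 5 ∨ p = 7)) := by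
  have hdvd := card_dvd_of_pgroup h2 (p := p) (by omega) hD hZ hDZ
  obtain ⟨n, hn⟩ := IsPGroup.iff_card.mp hD
  rcases n with _ | n
  · left
    simpa using hn
  · right
    have h1 : p ∣ 20160 := by
      rw [hn] at hdvd
      exact (dvd_pow_self p n.succ_ne_zero).trans hdvd
    have hpp : p.Prime := hp.out
    have h2' : p = 5 ∨ p = 7 := by
      have h3 : (20160 : ℕ) = 2 ^ 6 * 3 ^ 2 * 5 * 7 := by norm_num
      rw [h3] at h1
      rcases (Nat.Prime.dvd_mul hpp).mp h1 with h | h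
      · rcases (Nat.Prime.dvd_mul hpp).mp h with h | h
        · rcases (Nat.Prime.dvd_mul hpp).mp h with h | h
          · have := (Nat.prime_dvd_prime_iff_eq hpp Nat.prime_two).mp (hpp.dvd_of_dvd_pow h)
            omega
          · have := (Nat.prime_dvd_prime_iff_eq hpp Nat.prime_three).mp (hpp.dvd_of_dvd_pow h)
            omega
        · left
          exact (Nat.prime_dvd_prime_iff_eq hpp (by norm_num)).mp h
      · right
        exact (Nat.prime_dvd_prime_iff_eq hpp (by norm_num)).mp h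
    refine ⟨?_, h2'⟩
    rcases n with _ | n
    · simpa using hn
    · exfalso
      have h4 : p ^ 2 ∣ 20160 := by
        rw [hn] at hdvd
        exact (pow_dvd_pow p (by omega)).trans hdvd
      rcases h2' with h | h <;> · rw [h] at h4; norm_num at h4

omit hV in
/-- Structure of `e = t⁻¹ (f t f⁻¹)`. -/
theorem e_cases (hV : Nat.card (VV t) = 4) {p : ℕ} [hp : Fact p.Prime] (hp5 : 5 ≤ p) {P : Subgroup (MulAut A)}
    (hP : IsPGroup p P) (htP : ∀ g ∈ P, t * g * t⁻¹ ∈ P) {f : MulAut A} (hf : f ∈ P) :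
    t⁻¹ * (f * t * f⁻¹) = 1 ∨ (p = 7 ∧ orderOf (t⁻¹ * (f * t * f⁻¹)) = 7 ∧
      ∃ k : ℕ, t * (t⁻¹ * (f * t * f⁻¹)) * t⁻¹ = (t⁻¹ * (f * t * f⁻¹)) ^ k ∧ 7 ∣ k + k * k + 1) := by
  set e := t⁻¹ * (f * t * f⁻¹) with he
  set t₁ := f * t * f⁻¹ with ht₁
  by_cases he1 : e = 1
  · exact Or.inl he1
  right
  have htP' : ∀ g ∈ P, t⁻¹ * g * t ∈ P := by
    intro g hg
    have h1 := htP _ (htP g hg)
    rwa [G_conj2 ht] at h1
  have heP : e ∈ P := by
    rw [he, G_e]
    exact P.mul_mem (htP' f hf) (P.inv_mem hf)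
  set Z : Subgroup A := VV t ⊔ VV t₁ with hZ
  have hV₁ : Nat.card (VV t₁) = 4 := by rw [ht₁, card_VV_conj, hV]
  have hZ16 : Nat.card Z ≤ 16 := by
    apply card_sup_le_of_inf h2 (n := 1) Nat.card_pos (by norm_num)
    rw [hV, hV₁]
  have ht_L : t ∈ Lz Z := Lz_mono le_sup_left (mem_Lz_self t)
  have ht₁_L : t₁ ∈ Lz Z := Lz_mono le_sup_right (mem_Lz_self t₁)
  have he_L : e ∈ Lz Z := (Lz Z).mul_mem ((Lz Z).inv_mem ht_L) ht₁_L
  set D : Subgroup (MulAut A) := P ⊓ Lz Z with hD
  have hDp : IsPGroup p D := hP.to_le inf_le_left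
  have heD : e ∈ D := ⟨heP, he_L⟩
  have hueD : t * e * t⁻¹ ∈ D :=
    ⟨htP e heP, (Lz Z).mul_mem ((Lz Z).mul_mem ht_L he_L) ((Lz Z).inv_mem ht_L)⟩
  have hcases := card_cases h2 hp5 hDp hZ16 inf_le_right
  have hcD : Nat.card D = p ∧ (p = 5 ∨ p = 7) := by
    rcases hcases with h | h
    · exfalso
      apply he1
      have h3 := (Subgroup.eq_bot_of_card_eq D h)
      rw [h3] at heD
      exact heD
    · exact h
  obtain ⟨hcD, hp57⟩ := hcD
  have hord : orderOf e = p := by
    have h3 : orderOf (⟨e, heD⟩ : D) = p := by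
      have h4 : orderOf (⟨e, heD⟩ : D) ∣ p := hcD ▸ orderOf_dvd_natCard _
      rcases (Nat.dvd_prime hp.out).mp h4 with h | h
      · exfalso
        apply he1
        have := orderOf_eq_one_iff.mp h
        exact congrArg Subtype.val this
      · exact h
    rwa [Subgroup.orderOf_mk] at h3
  have hek : ∃ k : ℕ, t * e * t⁻¹ = e ^ k := by
    have hne : (⟨e, heD⟩ : D) ≠ 1 := fun h => he1 (congrArg Subtype.val h)
    have hmem : (⟨t * e * t⁻¹, hueD⟩ : D) ∈ zpowers (⟨e, heD⟩ : D) :=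
      mem_zpowers_of_prime_card hcD hne
    rw [← mem_powers_iff_mem_zpowers] at hmem
    obtain ⟨k, hk⟩ := hmem
    refine ⟨k, ?_⟩
    have := congrArg Subtype.val hk
    simpa using this.symm
  obtain ⟨k, hk⟩ := hek
  have ht₁3 : t₁ ^ 3 = 1 := G_conjcube ht f
  have ht₁e : t₁ = t * e := G_t1 t f
  have h3 : e ^ k * e ^ (k * k) * e = 1 := by
    have h4 : t * (t * e * t⁻¹) * t⁻¹ = e ^ (k * k) := by
      rw [hk, G_conj_pow, hk, ← pow_mul]
    have h5 := G_cube t e
    rw [← h4, ← hk]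
    rw [ht₁e, h5, ht, one_mul] at ht₁3
    exact ht₁3
  have h4 : e ^ (k + k * k + 1) = 1 := by
    rw [pow_add, pow_add, pow_one]
    exact h3
  have h5 : p ∣ k + k * k + 1 := by
    rw [← hord]
    exact orderOf_dvd_of_pow_eq_one h4
  have hp7 : p = 7 := by
    rcases hp57 with h | h
    · exfalso
      rw [h] at h5
      have h6 : ((k + k * k + 1 : ℕ) : ZMod 5) = 0 := (ZMod.natCast_eq_zero_iff _ _).mpr h5
      push_cast at h6
      have h7 : ∀ x : ZMod 5, x + x * x + 1 ≠ 0 := by decide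
      exact h7 _ h6
    · exact h
  refine ⟨hp7, hp7 ▸ hord, k, hk, hp7 ▸ h5⟩

omit ht hV in
/-- `e` of order `7` with `|[A,e]| ≤ 16`: `|[A,e]| = 8`. -/
theorem card_VV_seven {e : MulAut A} (he : orderOf e = 7) (hle : Nat.card (VV e) ≤ 16) :
    Nat.card (VV e) = 8 := by
  classical
  set X := VV e with hX
  haveI : Fact (Nat.Prime 7) := ⟨by norm_num⟩
  let r : MulAut X := res X ⟨e, mem_Lz_self e⟩
  have hr : r ^ 7 = 1 := by
    rw [show r = res X ⟨e, mem_Lz_self e⟩ from rfl, ← map_pow]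
    have : (⟨e, mem_Lz_self e⟩ : Lz X) ^ 7 = 1 := by
      apply Subtype.ext
      simpa [← he] using pow_orderOf_eq_one e
    rw [this, map_one]
  have hG : IsPGroup 7 (zpowers r) := by
    rintro ⟨g, z, rfl⟩
    refine ⟨1, ?_⟩
    apply Subtype.ext
    show (r ^ z) ^ 7 ^ 1 = 1
    rw [pow_one, ← zpow_natCast, ← zpow_mul, mul_comm, zpow_mul, zpow_natCast, hr, one_zpow]
  have hm := hG.card_modEq_card_fixedPoints X
  have hfix : Nat.card (MulAction.fixedPoints (zpowers r) X) = 1 := by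
    rw [Nat.card_eq_one_iff_unique]
    refine ⟨⟨?_⟩, ⟨⟨1, ?_⟩⟩⟩
    · rintro ⟨x, hx⟩ ⟨y, hy⟩
      have key : ∀ z : X, z ∈ MulAction.fixedPoints (zpowers r) X → z = 1 := by
        intro z hz
        have h3 := hz ⟨r, mem_zpowers r⟩
        have h4 : e z.1 = z.1 := congrArg Subtype.val h3
        apply Subtype.ext
        exact eq_one_of_fixed_of_mem h2 (n := 7) (by decide) (by rw [← he]; exact pow_orderOf_eq_one e) z.2 h4
      apply Subtype.ext
      exact (key x hx).trans (key y hy).symm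
    · intro g
      exact map_one _
  rw [hfix] at hm
  have hX2 : IsPGroup 2 X := fun z => ⟨1, by
    apply Subtype.ext
    simpa using h2 z.1⟩
  haveI : Fact (Nat.Prime 2) := ⟨Nat.prime_two⟩
  obtain ⟨j, hj⟩ := IsPGroup.iff_card.mp hX2
  have hne : Nat.card X ≠ 1 := by
    intro h1
    have hbot := Subgroup.eq_bot_of_card_eq X h1
    have he1 : e = 1 := by
      ext m
      have h3 : e m * m⁻¹ ∈ X := dl_mem e m
      rw [hbot] at h3
      exact mul_inv_eq_one.mp h3
    rw [he1, orderOf_one] at he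
    omega
  rw [hj] at hm hle hne ⊢
  have hj4 : j ≤ 4 := by
    by_contra hlt
    push Not at hlt
    have h3 : 2 ^ 5 ≤ 2 ^ j := Nat.pow_le_pow_right (by norm_num) hlt
    omega
  interval_cases j
  · exact absurd rfl hne
  · exact absurd hm (by decide)
  · exact absurd hm (by decide)
  · rfl
  · exact absurd hm (by decide)

/-- `[A,t] ≤ [A,e]` when `t` acts nontrivially on `⟨e⟩` of order `7`. -/
theorem VV_le_VV_seven {e : MulAut A} (he : orderOf e = 7) {k : ℕ}
    (hk : t * e * t⁻¹ = e ^ k) (hk7 : 7 ∣ k + k * k + 1) : VV t ≤ VV e := by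
  classical
  haveI : Fact (Nat.Prime 7) := ⟨by norm_num⟩
  set X := VV e with hX
  have hXt : ∀ x ∈ X, t x ∈ X := by
    intro x hx
    have h3 : t x ∈ VV (t * e * t⁻¹) := by
      rw [VV_conj]
      exact ⟨x, hx, rfl⟩
    rw [hk] at h3
    exact VV_pow_le e k h3
  apply VV_le_of_moved h2 ht hV hXt
  by_contra hno
  push Not at hno
  let r : MulAut X := res X ⟨e, mem_Lz_self e⟩
  have hr7 : r ^ 7 = 1 := by
    rw [show r = res X ⟨e, mem_Lz_self e⟩ from rfl, ← map_pow]
    have : (⟨e, mem_Lz_self e⟩ : Lz X) ^ 7 = 1 := by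
      apply Subtype.ext
      simpa [← he] using pow_orderOf_eq_one e
    rw [this, map_one]
  have hrk : r ^ k = r := by
    ext x
    have h3 : ((r ^ k) x : A) = (e ^ k) x.1 := by
      rw [show r = res X ⟨e, mem_Lz_self e⟩ from rfl, ← map_pow]
      rfl
    rw [h3, ← hk]
    have h4 : t⁻¹ x.1 = x.1 := by
      have := hno x.1 x.2
      apply t.injective
      rw [this]
      simp
    rw [MulAut.mul_apply, MulAut.mul_apply, h4]
    exact hno _ (map_mem_of_mem_Lz (mem_Lz_self e) x.2)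
  have hord : orderOf r = 1 := by
    have h3 : orderOf r ∣ 7 := orderOf_dvd_of_pow_eq_one hr7
    rcases (Nat.dvd_prime (by norm_num)).mp h3 with h | h
    · exact h
    · exfalso
      have h4 : k ≡ 1 [MOD 7] := by
        rw [← h]
        apply pow_eq_pow_iff_modEq.mp
        rw [pow_one]
        exact hrk
      have h5 : (k + k * k + 1) % 7 = 0 := Nat.mod_eq_zero_of_dvd hk7
      have h6 : k % 7 = 1 := h4
      have h7 : (k + k * k + 1) % 7 = (k % 7 + (k % 7) * (k % 7) + 1) % 7 := by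
        simp [Nat.add_mod, Nat.mul_mod]
      rw [h6] at h7
      omega
  have hr1 : r = 1 := orderOf_eq_one_iff.mp hord
  have hbot : ∀ x ∈ X, x = 1 := by
    intro x hx
    apply eq_one_of_fixed_of_mem h2 (n := 7) (by decide) (by rw [← he]; exact pow_orderOf_eq_one e) hx
    have := DFunLike.congr_fun hr1 ⟨x, hx⟩
    exact congrArg Subtype.val this
  have he1 : e = 1 := by
    ext m
    exact mul_inv_eq_one.mp (hbot _ (dl_mem e m))
  rw [he1, orderOf_one] at he
  omega

omit ht hV in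
/-- Two elements of order `7` of a `7`-group with a small commutator. -/
theorem mem_zpowers_of_sup {P : Subgroup (MulAut A)} (hP : IsPGroup 7 P) {e e' : MulAut A}
    (he : e ∈ P) (he' : e' ∈ P) (ho : orderOf e = 7) (hZ : Nat.card (VV e ⊔ VV e' : Subgroup A) ≤ 16) :
    e' ∈ zpowers e := by
  haveI : Fact (Nat.Prime 7) := ⟨by norm_num⟩
  set Z : Subgroup A := VV e ⊔ VV e' with hZd
  set D : Subgroup (MulAut A) := P ⊓ Lz Z with hD
  have heD : e ∈ D := ⟨he, Lz_mono le_sup_left (mem_Lz_self e)⟩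
  have he'D : e' ∈ D := ⟨he', Lz_mono le_sup_right (mem_Lz_self e')⟩
  have he1 : e ≠ 1 := by
    rintro rfl
    rw [orderOf_one] at ho
    omega
  have hc : Nat.card D = 7 := by
    rcases card_cases h2 (p := 7) (by norm_num) (hP.to_le inf_le_left) hZ inf_le_right with h | h
    · exfalso
      have h3 := Subgroup.eq_bot_of_card_eq D h
      rw [h3] at heD
      exact he1 heD
    · exact h.1
  have hne : (⟨e, heD⟩ : D) ≠ 1 := fun h => he1 (congrArg Subtype.val h)
  have hmem : (⟨e', he'D⟩ : D) ∈ zpowers (⟨e, heD⟩ : D) := mem_zpowers_of_prime_card hc hne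
  obtain ⟨z, hz⟩ := mem_zpowers_iff.mp hmem
  refine mem_zpowers_iff.mpr ⟨z, ?_⟩
  have := congrArg Subtype.val hz
  simpa using this

/-- A `p`-group, `p ≥ 5`, normalized by `t` has a subgroup of index at most `7` fixing `[A, t]`. -/
theorem main_p5 {p : ℕ} [hp : Fact p.Prime] (hp5 : 5 ≤ p) {P : Subgroup (MulAut A)}
    (hP : IsPGroup p P) (htP : ∀ g ∈ P, t * g * t⁻¹ ∈ P) :
    ∃ K : Subgroup (MulAut A), K ≤ P ∧ (∀ g ∈ K, ∀ v ∈ VV t, g v = v) ∧ K.relIndex P ≤ 7 := by
  classical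
  obtain ⟨n, hn⟩ := IsPGroup.iff_card.mp hP
  by_cases hall : ∀ f ∈ P, t⁻¹ * (f * t * f⁻¹) = 1
  · -- `P` centralizes `t`
    have hPS : P ≤ St (VV t) := by
      intro g hg
      apply mem_St_of_map_eq
      rw [← VV_conj]
      have h3 : g * t * g⁻¹ = t := by
        have := hall g hg
        rwa [inv_mul_eq_one, eq_comm] at this
      rw [h3]
    obtain ⟨K, hKP, hKfix, hd1, hd2⟩ := exists_fix_subgroup hPS
    refine ⟨K, hKP, hKfix, ?_⟩
    have hV2 : ∀ x : VV t, x * x = x * x := fun _ => rfl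
    have hcard : Nat.card (MulAut (VV t)) = 6 := by
      have hc : ∀ x y : VV t, x * y = y * x := fun x y => mul_comm x y
      have hpow : ∀ x : VV t, x ^ 2 = 1 := fun x => Subtype.ext (by simpa using h2 x.1)
      haveI : Fact (Nat.Prime 2) := ⟨Nat.prime_two⟩
      rw [Cfsg.Agent.Lib.CharDeep.PartBound.card_mulAut_elem hc hpow (d := 2) (by rw [hV]; norm_num)]
      decide
    rw [hcard] at hd2
    rw [hn] at hd1
    have hcop : Nat.Coprime (p ^ n) 6 := by
      apply Nat.Coprime.pow_left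
      rw [Nat.coprime_comm]
      apply Nat.Coprime.symm
      apply (Nat.Prime.coprime_iff_not_dvd hp.out).mpr
      intro h3
      have h4 := Nat.le_of_dvd (by norm_num) h3
      have h5 : p ≠ 5 := by
        rintro rfl
        norm_num at h3
      have h6 : p = 6 := by omega
      rw [h6] at hp
      exact absurd hp.out (by norm_num)
    have h7 := Nat.eq_one_of_dvd_coprimes hcop hd1 hd2
    omega
  · push Not at hall
    obtain ⟨f, hf, hef⟩ := hall
    rcases e_cases h2 ht hV hp5 hP htP hf with h | ⟨hp7, ho, k, hk, hk7⟩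
    · exact absurd h hef
    subst hp7
    set e := t⁻¹ * (f * t * f⁻¹) with he
    have heP : e ∈ P := by
      rw [he, G_e]
      have h1 := htP _ (htP f hf)
      rw [G_conj2 ht] at h1
      exact P.mul_mem h1 (P.inv_mem hf)
    -- general facts on `e_g`
    have hgen : ∀ g ∈ P, t⁻¹ * (g * t * g⁻¹) = 1 ∨ (orderOf (t⁻¹ * (g * t * g⁻¹)) = 7 ∧
        VV t ≤ VV (t⁻¹ * (g * t * g⁻¹)) ∧ Nat.card (VV (t⁻¹ * (g * t * g⁻¹))) = 8) := by
      intro g hg
      rcases e_cases h2 ht hV hp5 hP htP hg with h | ⟨-, ho', k', hk', hk7'⟩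
      · exact Or.inl h
      right
      refine ⟨ho', VV_le_VV_seven h2 ht hV ho' hk' hk7', ?_⟩
      apply card_VV_seven h2 ho'
      -- `[A, e_g] ≤ [A,t] ⊔ [A, g t g⁻¹]`
      have h3 : VV (t⁻¹ * (g * t * g⁻¹)) ≤ VV t ⊔ VV (g * t * g⁻¹) :=
        (VV_mul_le _ _).trans (sup_le_sup_right (VV_inv_le t) _)
      have h4 : Nat.card (VV t ⊔ VV (g * t * g⁻¹) : Subgroup A) ≤ 16 := by
        apply card_sup_le_of_inf h2 (n := 1) Nat.card_pos (by norm_num)
        rw [hV, card_VV_conj, hV]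
      exact (Subgroup.card_le_of_le h3).trans h4
    obtain ⟨-, hVX, hX8⟩ := (hgen f hf).resolve_left hef
    have hsup8 : ∀ {Y : Subgroup A}, Nat.card Y = 8 → ∀ {W : Subgroup A}, W ≤ VV e → W ≤ Y →
        Nat.card W = 4 → Nat.card (VV e ⊔ Y : Subgroup A) ≤ 16 := by
      intro Y hY W hW1 hW2 hW
      apply card_sup_le_of_inf h2 (n := 4) (m := 16) (hW ▸ Subgroup.card_le_of_le (le_inf hW1 hW2))
        (by norm_num)
      rw [hX8, hY]
    -- all `e_g` are powers of `e`
    have hpow : ∀ g ∈ P, t⁻¹ * (g * t * g⁻¹) ∈ zpowers e := by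
      intro g hg
      rcases hgen g hg with h | ⟨ho', hV', hc'⟩
      · rw [h]
        exact one_mem _
      have hg' : t⁻¹ * (g * t * g⁻¹) ∈ P := by
        rw [G_e]
        have h1 := htP _ (htP g hg)
        rw [G_conj2 ht] at h1
        exact P.mul_mem h1 (P.inv_mem hg)
      exact mem_zpowers_of_sup h2 hP heP hg' ho (hsup8 hc' hVX hV' hV)
    -- `g V ≤ X`
    have hgV : ∀ g ∈ P, (VV t).map g.toMonoidHom ≤ VV e := by
      intro g hg
      rw [← VV_conj, G_t1 t g]
      refine (VV_mul_le _ _).trans (sup_le hVX ?_)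
      obtain ⟨z, hz⟩ := mem_zpowers_iff.mp (hpow g hg)
      rw [← hz]
      exact VV_zpow_le e z
    -- `g e g⁻¹` is a power of `e`
    have hconj : ∀ g ∈ P, g * e * g⁻¹ ∈ zpowers e := by
      intro g hg
      have hc1 : Nat.card (VV (g * e * g⁻¹)) = 8 := by rw [card_VV_conj, hX8]
      have hc2 : (VV t).map g.toMonoidHom ≤ VV (g * e * g⁻¹) := by
        rw [VV_conj]
        exact Subgroup.map_mono hVX
      have hc3 : Nat.card ((VV t).map g.toMonoidHom) = 4 := by
        rw [Subgroup.card_map_of_injective g.injective, hV]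
      exact mem_zpowers_of_sup h2 hP heP (P.mul_mem (P.mul_mem hg heP) (P.inv_mem hg)) ho
        (hsup8 hc1 (hgV g hg) hc2 hc3)
    -- so `e` is central in `P`
    have hcomm : ∀ g ∈ P, g * e * g⁻¹ = e := by
      intro g hg
      let e₀ : P := ⟨e, heP⟩
      let T : Subgroup P := zpowers e₀
      have hTn : T.Normal := by
        constructor
        intro n hn' y
        obtain ⟨z, hz⟩ := mem_zpowers_iff.mp hn'
        obtain ⟨w, hw⟩ := mem_zpowers_iff.mp (hconj y.1 y.2)
        have h5 : y * e₀ * y⁻¹ = e₀ ^ w := by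
          apply Subtype.ext
          simpa [e₀] using hw.symm
        rw [← hz, ← conj_zpow, h5]
        exact Subgroup.zpow_mem _ (zpow_mem (mem_zpowers e₀) w) _
      have hTc : Nat.card T = 7 := by
        rw [Nat.card_zpowers, Subgroup.orderOf_mk]
        exact ho
      have h6 := Cfsg.Agent.Lib.PGroups.Special.le_center_of_card_eq hP T hTc
      have h7 : e₀ ∈ center P := h6 (mem_zpowers e₀)
      have h8 := (Subgroup.mem_center_iff.mp h7) ⟨g, hg⟩
      have h9 : g * e = e * g := congrArg Subtype.val h8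
      rw [h9]
      simp
    have hPS : P ≤ St (VV e) := by
      intro g hg
      apply mem_St_of_map_eq
      rw [← VV_conj, hcomm g hg]
    obtain ⟨K, hKP, hKfix, hd1, hd2⟩ := exists_fix_subgroup hPS
    refine ⟨K, hKP, fun g hg v hv => hKfix g hg v (hVX hv), ?_⟩
    have hcard : Nat.card (MulAut (VV e)) = 168 := by
      have hc : ∀ x y : VV e, x * y = y * x := fun x y => mul_comm x y
      have hpow' : ∀ x : VV e, x ^ 2 = 1 := fun x => Subtype.ext (by simpa using h2 x.1)
      haveI : Fact (Nat.Prime 2) := ⟨Nat.prime_two⟩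
      rw [Cfsg.Agent.Lib.CharDeep.PartBound.card_mulAut_elem hc hpow' (d := 3) (by rw [hX8]; norm_num)]
      decide
    rw [hcard] at hd2
    rw [hn] at hd1
    obtain ⟨j, -, hj⟩ := (Nat.dvd_prime_pow (by norm_num : Nat.Prime 7)).mp hd1
    rw [hj] at hd2 ⊢
    rcases j with _ | _ | j
    · norm_num
    · norm_num
    · exfalso
      have h3 : 7 ^ 2 ∣ 168 := (pow_dvd_pow 7 (by omega)).trans hd2
      norm_num at h3

omit ht hV in
theorem comm_of_card_three_pow {G : Type*} [Group G] {n : ℕ} (h : Nat.card G = 3 ^ n) (hn : n ≤ 2)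
    (a b : G) : a * b = b * a := by
  haveI : Fact (Nat.Prime 3) := ⟨by norm_num⟩
  interval_cases n
  · have h1 : Nat.card G = 1 := by simpa using h
    haveI : Finite G := Nat.finite_of_card_ne_zero (by omega)
    haveI := (Nat.card_eq_one_iff_unique.mp h1).1
    exact Subsingleton.elim _ _
  · have h1 : Nat.card G = 3 := by simpa using h
    haveI := isCyclic_of_prime_card h1
    exact (IsCyclic.commutative (α := G)).is_comm.comm a b
  · exact (IsPGroup.isMulCommutative_of_card_eq_prime_sq h).is_comm.comm a b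

/-- Two conjugates of `t` in a `3`-group commute. -/
theorem comm_conj_three {P : Subgroup (MulAut A)} (hP : IsPGroup 3 P) (htP : t ∈ P) {g : MulAut A}
    (hg : g ∈ P) : t * (g * t * g⁻¹) = (g * t * g⁻¹) * t := by
  haveI : Fact (Nat.Prime 3) := ⟨by norm_num⟩
  set t₁ := g * t * g⁻¹ with ht₁
  set Z : Subgroup A := VV t ⊔ VV t₁ with hZ
  have hV₁ : Nat.card (VV t₁) = 4 := by rw [ht₁, card_VV_conj, hV]
  have hZ16 : Nat.card Z ≤ 16 := by
    apply card_sup_le_of_inf h2 (n := 1) Nat.card_pos (by norm_num)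
    rw [hV, hV₁]
  set D : Subgroup (MulAut A) := P ⊓ Lz Z with hD
  have htD : t ∈ D := ⟨htP, Lz_mono le_sup_left (mem_Lz_self t)⟩
  have ht₁D : t₁ ∈ D := ⟨P.mul_mem (P.mul_mem hg htP) (P.inv_mem hg), Lz_mono le_sup_right (mem_Lz_self t₁)⟩
  have hdvd := card_dvd_of_pgroup h2 (p := 3) (by norm_num) (hP.to_le inf_le_left : IsPGroup 3 D) hZ16
    inf_le_right
  obtain ⟨n, hn⟩ := IsPGroup.iff_card.mp (hP.to_le inf_le_left : IsPGroup 3 D)
  have hn2 : n ≤ 2 := by
    by_contra hlt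
    push Not at hlt
    have h3 : 3 ^ 3 ∣ 20160 := by
      rw [hn] at hdvd
      exact (pow_dvd_pow 3 (by omega)).trans hdvd
    norm_num at h3
  have := comm_of_card_three_pow h2 hn hn2 (⟨t, htD⟩ : D) ⟨t₁, ht₁D⟩
  exact congrArg Subtype.val this

/-- A conjugate of `t` commuting with `t` with a different commutator fixes `[A, t]` pointwise. -/
theorem fix_of_comm {t₁ : MulAut A} (ht₁3 : t₁ ^ 3 = 1) (hV₁ : Nat.card (VV t₁) = 4)
    (hc : t * t₁ = t₁ * t) (hne : VV t₁ ≠ VV t) : ∀ v ∈ VV t, t₁ v = v := by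
  by_contra hno
  push Not at hno
  obtain ⟨v, hv, hm⟩ := hno
  have hX : ∀ x ∈ VV t, t₁ x ∈ VV t := by
    have h3 : t₁ * t * t₁⁻¹ = t := by
      rw [← hc]
      simp
    intro x hx
    rw [← h3, VV_conj]
    exact ⟨x, hx, rfl⟩
  have h5 := VV_le_of_moved h2 ht₁3 hV₁ hX ⟨v, hv, hm⟩
  exact hne (Subgroup.eq_of_le_of_card_ge h5 (by rw [hV, hV₁]))

/-- `f` normalizes `[A, t]`. -/
theorem norm_p3 {P : Subgroup (MulAut A)} (hP : IsPGroup 3 P) (htP : t ∈ P) {f : MulAut A} (hf : f ∈ P)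
    (hf3 : f ^ 3 = 1) (hcm : Commute (t⁻¹ * (f * t * f⁻¹)) f) : (VV t).map f.toMonoidHom = VV t := by
  by_contra hne
  set e := t⁻¹ * (f * t * f⁻¹) with he
  set t₁ := f * t * f⁻¹ with ht₁
  have ht₁e : t₁ = t * e := G_t1 t f
  have hfe : f * e * f⁻¹ = e := by
    rw [hcm.symm.eq]
    simp
  have ht₂ : (f * f) * t * (f * f)⁻¹ = t * e * e := by
    have h3 : (f * f) * t * (f * f)⁻¹ = f * t₁ * f⁻¹ := by
      rw [ht₁]
      group
    rw [h3, ht₁e]
    have h4 : f * (t * e) * f⁻¹ = (f * t * f⁻¹) * (f * e * f⁻¹) := by group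
    rw [h4, hfe, ← ht₁, ht₁e]
  set t₂ := (f * f) * t * (f * f)⁻¹ with ht₂d
  have hne₁ : VV t₁ ≠ VV t := by
    rw [ht₁, VV_conj]
    exact hne
  have hne₂ : VV t₂ ≠ VV t := by
    intro h
    rw [ht₂d, VV_conj] at h
    apply hne
    -- `f = (f f)(f f)`
    have hf4 : f = (f * f) * (f * f) := by
      have h5 : (f * f) * (f * f) = f ^ 3 * f := by
        simp only [pow_succ, pow_zero, one_mul, mul_assoc]
      rw [h5, hf3, one_mul]
    have h6 : ∀ (a b : MulAut A), (VV t).map a.toMonoidHom = VV t → (VV t).map b.toMonoidHom = VV t →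
        (VV t).map (a * b).toMonoidHom = VV t := by
      intro a b ha hb
      have : ((VV t).map (a * b).toMonoidHom) = ((VV t).map b.toMonoidHom).map a.toMonoidHom := by
        ext x
        simp [Subgroup.mem_map]
      rw [this, hb, ha]
    rw [hf4]
    exact h6 _ _ h h
  have hV₁ : Nat.card (VV t₁) = 4 := by rw [ht₁, card_VV_conj, hV]
  have hV₂ : Nat.card (VV t₂) = 4 := by rw [ht₂d, card_VV_conj, hV]
  have hc₁ := comm_conj_three h2 ht hV hP htP hf
  have hc₂ := comm_conj_three h2 ht hV hP htP (P.mul_mem hf hf)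
  have hfix₁ := fix_of_comm h2 ht hV (G_conjcube ht f) hV₁ hc₁ hne₁
  have hfix₂ := fix_of_comm h2 ht hV (G_conjcube ht (f * f)) hV₂ hc₂ hne₂
  -- an element `v ≠ 1`
  have hex : ∃ v ∈ VV t, v ≠ 1 := by
    by_contra hno
    push Not at hno
    have h3 : VV t = ⊥ := (Subgroup.eq_bot_iff_forall _).mpr hno
    rw [h3] at hV
    simp at hV
  obtain ⟨v, hv, hv1⟩ := hex
  have h3 : t₁ v = v := hfix₁ v hv
  have h4 : t₂ v = v := hfix₂ v hv
  rw [ht₁e, MulAut.mul_apply] at h3
  rw [ht₂, MulAut.mul_apply, MulAut.mul_apply] at h4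
  have h5 : e (e v) = e v := by
    apply t.injective
    rw [h3]
    exact h4
  have h6 : e v = v := e.injective h5
  rw [h6] at h3
  exact hv1 (fix_VV h2 ht hV hv h3)

end main

end Cfsg.Agent.Lib.ThreeTv
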